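import Cfsg.Agent.H866.TD.Cls
import Cfsg.Agent.H884.NA.BaseNA
import Cfsg.Agent.SignalizersComponents.SLQuasisimple

/-!
# S3509, `³D₄(q)`, second class of outer automorphisms of order three (helper911)

`x₀ = conj (Φ₀ A) * st q τ`, `A ∈ SL₂(F_q)`, `τ ^ 3 = 1`, `τ ≠ 1`, `Fx = C(x₀)`.

* `Psi` : `SL₂(F_q) →* ³D₄(q)` onto `⟨X ![1,2] ⊓ Fx, X ![-1,-2] ⊓ Fx⟩`, commuting with `Φ₀ (SL₂(F_q))`.
* `imgH`, `card_Xf`, `psi_range`, `psi_ker`.
* `cond_one`, `nsa_one` : condition and conclusion of helper398's / helper884's component theorem, `q % 3 = 1`.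
-/

set_option autoImplicit false
set_option linter.unusedSectionVars false
set_option maxHeartbeats 400000

namespace Cfsg.Agent.H911.TD

open CoxeterSystem Cfsg.Agent.ChevalleyStructure.CoxeterGeom Cfsg.Agent.Tits.Roots Cfsg.Agent.Tits.Core
  Cfsg.Agent.Tits.Exchange Cfsg.Agent.Nodes.Reps Cfsg.Agent.Nodes.BNOf Cfsg.Agent.Nodes.StabComb
  Cfsg.Agent.Nodes.Bruhat Cfsg.Agent.Nodes.OppDec Cfsg.Agent.Nodes.LeviDec Cfsg.Agent.Nodes.RGDTwGen
  Cfsg.Agent.Nodes.RGDChev Cfsg.Agent.Nodes.RGDFold Cfsg.Agent.Nodes.RGDFoldSL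
open Cfsg.Agent.KFacts.RgdOpp Cfsg.Agent.KFacts.RgdAut Cfsg.Agent.KFacts.RgdDiag Cfsg.Agent.KFacts.RgdRigid
  Cfsg.Agent.KFacts.RgdField Cfsg.Agent.KFacts.RgdTau Cfsg.Agent.KFacts.RgdNodes
open Cfsg.Lie Cfsg.Agent.ChevalleyStructure Cfsg.Agent.ChevalleyStructure.Elts
open Cfsg.Agent.ChevalleyStructure.SL2Hom (up lo mem_closure_SL2)
open Cfsg.Agent.KFacts.TwDFour.Out
open Cfsg.Agent.Nodes.RGDTwD4 Cfsg.Agent.Nodes.RGDTwNode.D4
open Cfsg.Agent.CpAut.RgdFix Cfsg.Agent.CpAut.RgdConj Cfsg.Agent.CpAut.RgdTwStd Cfsg.Agent.CpAut.RgdTwD4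
open Cfsg.Agent.H28.FamFour (st_mul st_one)
open Cfsg.Agent.H866.D4Wf.Frame Cfsg.Agent.H866.D4Wf.SLThree
open Cfsg.Agent.H398.RG (Base Cond MK MK_le_self le_MK cond_of_perfect)
open Cfsg.Agent.H884.NA (ImgH nsa_base)
open Cfsg.Agent.H873.RG (NSA)
open Cfsg.Agent.BpExc.FamField (exists_pow_eq forall_pow_iff)

theorem c_12 : ∀ k < chevD4.nroots, (V chevD4 Nodes.RGDTwD4.J k = ![1, 2] ↔ k ∈ [21, 20, 17]) := by decide +kernel
theorem c_n12 : ∀ k < chevD4.nroots, (V chevD4 Nodes.RGDTwD4.J k = ![-1, -2] ↔ k ∈ [6, 3, 2]) := by decide +kernel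

variable {K : Type} [Field K] [Fintype K] {q : ℕ} (hK : Fintype.card K = q ^ 3)
  {φ : K →+* K} (hφ : ∀ x, φ x = x ^ q)

section tau

include hK hφ in
/-- the fixed field of an automorphism of order three -/
theorem fix_tau (hq : IsPrimePow q) {τ : K ≃+* K} (hτ : τ ^ 3 = 1) (hτ1 : τ ≠ 1) {a : K} (ha : τ a = a) : φ a = a := by
  obtain ⟨r, hr⟩ := CharP.exists K
  have : Fact r.Prime := ⟨CharP.char_is_prime K r⟩
  obtain ⟨n, hn0, hn⟩ := H27.Exc.exists_pow (r := r) three_pos hq hK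
  obtain ⟨j, hj⟩ := exists_pow_eq r τ
  have hcard : Nat.card K = r ^ (n * 3) := by rw [Nat.card_eq_fintype_card, hK, hn, pow_mul]
  have h1 : ∀ b : K, b ^ r ^ (j * 3) = b := by
    intro b
    have h2 := Cfsg.Agent.BpExc.FamField.pow_apply_of hj 3 b
    rw [hτ] at h2
    exact h2.symm
  have h2 : n ∣ j := by
    have h3 := (forall_pow_iff (F := K) r hcard (j * 3)).1 h1
    exact Nat.dvd_of_mul_dvd_mul_right three_pos h3
  obtain ⟨m, rfl⟩ := h2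
  have h3 : ∀ (m : ℕ) (b : K), b ^ r ^ (n * m) = φ^[m] b := by
    intro m
    induction m with
    | zero => intro b; rw [mul_zero, pow_zero, pow_one]; rfl
    | succ m ih =>
      intro b
      rw [mul_add, mul_one, pow_add, pow_mul, ih, ← hn, ← hφ, Function.iterate_succ_apply']
  have h4 : ∀ b : K, τ b = φ^[m] b := fun b => by rw [hj, h3]
  have hthree : ∀ b : K, φ^[3] b = b := fun b => phi_three hφ hK b
  have h5 : ∀ (k : ℕ) (b : K), φ^[3 * k] b = b := by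
    intro k
    induction k with
    | zero => intro b; rfl
    | succ k ih => intro b; rw [mul_add, mul_one, Function.iterate_add_apply, hthree, ih]
  have h6 : ∀ b : K, φ^[m] b = φ^[m % 3] b := by
    intro b
    conv_lhs => rw [← Nat.div_add_mod m 3]
    rw [Function.iterate_add_apply, h5]
  rw [h4, h6] at ha
  have h7 : m % 3 < 3 := Nat.mod_lt _ three_pos
  interval_cases hm : m % 3
  · exact absurd (RingEquiv.ext fun b => by rw [h4, h6]; first | rfl | (rw [hm]; rfl)) hτ1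
  · exact ha
  · have h8 : φ (φ a) = a := ha
    have h9 := phi_three hφ hK a
    rw [h8] at h9
    exact h9

end tau

section comm

include hK hφ in
theorem comm_sr0_12 {a b : ↥(twistedD4 K q)} (ha : a ∈ X φ q ![1, 0]) (hb : b ∈ X φ q ![1, 2]) : a * b = b * a :=
  X_comm_of hK hφ c_sr0 (by decide +kernel) c_12 (by decide +kernel) (by decide +kernel) ha hb
include hK hφ in
theorem comm_sr0_n12 {a b : ↥(twistedD4 K q)} (ha : a ∈ X φ q ![1, 0]) (hb : b ∈ X φ q ![-1, -2]) : a * b = b * a :=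
  X_comm_of hK hφ c_sr0 (by decide +kernel) c_n12 (by decide +kernel) (by decide +kernel) ha hb
include hK hφ in
theorem comm_nsr0_12 {a b : ↥(twistedD4 K q)} (ha : a ∈ X φ q ![-1, 0]) (hb : b ∈ X φ q ![1, 2]) : a * b = b * a :=
  X_comm_of hK hφ c_nsr0 (by decide +kernel) c_12 (by decide +kernel) (by decide +kernel) ha hb
include hK hφ in
theorem comm_nsr0_n12 {a b : ↥(twistedD4 K q)} (ha : a ∈ X φ q ![-1, 0]) (hb : b ∈ X φ q ![-1, -2]) : a * b = b * a :=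
  X_comm_of hK hφ c_nsr0 (by decide +kernel) c_n12 (by decide +kernel) (by decide +kernel) ha hb

include hK in
theorem L0_comm {A : Matrix.SpecialLinearGroup (Fin 2) (KD φ 0)} {u : ↥(twistedD4 K q)}
    (hu : u ∈ X φ q ![1, 2] ∨ u ∈ X φ q ![-1, -2]) : PhiD hφ hK 0 A * u = u * PhiD hφ hK 0 A := by
  have h3 : Subgroup.closure (Set.range (up (F := KD φ 0)) ∪ Set.range (lo (F := KD φ 0))) ≤
      (Subgroup.centralizer {u}).comap (PhiD hφ hK 0) := by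
    rw [Subgroup.closure_le]
    rintro _ (⟨a, rfl⟩ | ⟨a, rfl⟩)
    · show PhiD hφ hK 0 (up a) ∈ Subgroup.centralizer {u}
      rw [Subgroup.mem_centralizer_singleton_iff]
      have h0 : PhiD hφ hK 0 (up a) ∈ X φ q ![1, 0] := by rw [← sr0_eq]; exact (mem_X hφ hK 0 _).2 ⟨a, rfl⟩
      rcases hu with hu | hu
      · exact comm_sr0_12 hK hφ h0 hu
      · exact comm_sr0_n12 hK hφ h0 hu
    · show PhiD hφ hK 0 (lo a) ∈ Subgroup.centralizer {u}
      rw [Subgroup.mem_centralizer_singleton_iff]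
      have e : (-sr 0 : Fin 2 → ℤ) = ![-1, 0] := by decide
      have h0 : PhiD hφ hK 0 (lo a) ∈ X φ q ![-1, 0] := by rw [← e]; exact (mem_negX hK hφ 0 _).2 ⟨a, rfl⟩
      rcases hu with hu | hu
      · exact comm_nsr0_12 hK hφ h0 hu
      · exact comm_nsr0_n12 hK hφ h0 hu
  exact Subgroup.mem_centralizer_singleton_iff.1 (h3 (mem_closure_SL2 A))

end comm

section psi

/-- the Weyl element `![0,1] ↦ ![1,2]` -/
noncomputable def mm : ↥(twistedD4 K q) := n hφ 1 * n hφ 0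

include hK in
theorem cj_mm {z z' z'' : Fin 2 → ℤ} (hz : z ∈ rts) (hz' : z' ∈ rts) (h1 : rep cs isCartan (cs.simple 0) z = z')
    (h2 : rep cs isCartan (cs.simple 1) z' = z'') (y : ↥(twistedD4 K q)) :
    y ∈ X φ q z'' ↔ (mm hφ)⁻¹ * y * mm hφ ∈ X φ q z := by
  obtain ⟨r, hr⟩ := CharP.exists K
  have : Fact r.Prime := ⟨CharP.char_is_prime K r⟩
  have e1 := (rgd' hK hφ r).conj 0 z (isRoot_of_mem hz)
  have e2 := (rgd' hK hφ r).conj 1 z' (isRoot_of_mem hz')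
  rw [h1] at e1
  rw [h2] at e2
  rw [← e2, mem_cj, ← e1, mem_cj]
  unfold mm
  rw [show (n hφ 0)⁻¹ * ((n hφ 1)⁻¹ * y * n hφ 1) * n hφ 0 = (n hφ 1 * n hφ 0)⁻¹ * y * (n hφ 1 * n hφ 0) by group]

include hK in
theorem mem_12 (y : ↥(twistedD4 K q)) :
    y ∈ X φ q ![1, 2] ↔ ∃ a : KD φ 1, y = mm hφ * PhiD hφ hK 1 (up a) * (mm hφ)⁻¹ := by
  rw [cj_mm hK hφ (z := ![0, 1]) (z' := ![1, 1]) (by decide) (by decide) (by rw [rep0]; norm_num)
    (by rw [rep1]; norm_num), ← sr1_eq, mem_X hφ hK 1]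
  constructor
  · rintro ⟨a, ha⟩
    exact ⟨a, by rw [← ha]; group⟩
  · rintro ⟨a, rfl⟩
    exact ⟨a, by group⟩

include hK in
theorem mem_n12 (y : ↥(twistedD4 K q)) :
    y ∈ X φ q ![-1, -2] ↔ ∃ a : KD φ 1, y = mm hφ * PhiD hφ hK 1 (lo a) * (mm hφ)⁻¹ := by
  have e : (-sr 1 : Fin 2 → ℤ) = ![0, -1] := by decide
  rw [cj_mm hK hφ (z := ![0, -1]) (z' := ![-1, -1]) (by decide) (by decide) (by rw [rep0]; norm_num)
    (by rw [rep1]; norm_num), ← e, mem_negX hK hφ 1]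
  constructor
  · rintro ⟨a, ha⟩
    exact ⟨a, by rw [← ha]; group⟩
  · rintro ⟨a, rfl⟩
    exact ⟨a, by group⟩

theorem st_mm (τ : K ≃+* K) : st q τ (mm hφ) = mm hφ := by
  unfold mm
  rw [map_mul, st_n, st_n]

/-- `F_q` inside `F_{q³}` -/
noncomputable def inc : KD φ 0 →+* KD φ 1 :=
  Subfield.inclusion (show KD φ 0 ≤ KD φ 1 by
    intro a _
    rw [F3_eq_top hK hφ]
    exact Subfield.mem_top a)

theorem coe_inc (a : KD φ 0) : ((inc hK hφ a : KD φ 1) : K) = a := rfl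

/-- **the homomorphism** -/
noncomputable def Psi : Matrix.SpecialLinearGroup (Fin 2) (KD φ 0) →* ↥(twistedD4 K q) :=
  (MulAut.conj (mm hφ)).toMonoidHom.comp ((PhiD hφ hK 1).comp (Matrix.SpecialLinearGroup.map (inc hK hφ)))

theorem psi_up (s : KD φ 0) : Psi hK hφ (up s) = mm hφ * PhiD hφ hK 1 (up (inc hK hφ s)) * (mm hφ)⁻¹ := by
  have h1 : Matrix.SpecialLinearGroup.map (inc hK hφ) (up s) = up (inc hK hφ s) := by
    refine Subtype.ext (Matrix.ext fun i j => ?_)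
    show inc hK hφ ((up s).1 i j) = (up (inc hK hφ s)).1 i j
    fin_cases i <;> fin_cases j <;> simp [up]
  show mm hφ * PhiD hφ hK 1 (Matrix.SpecialLinearGroup.map (inc hK hφ) (up s)) * (mm hφ)⁻¹ = _
  rw [h1]

theorem psi_lo (s : KD φ 0) : Psi hK hφ (lo s) = mm hφ * PhiD hφ hK 1 (lo (inc hK hφ s)) * (mm hφ)⁻¹ := by
  have h1 : Matrix.SpecialLinearGroup.map (inc hK hφ) (lo s) = lo (inc hK hφ s) := by
    refine Subtype.ext (Matrix.ext fun i j => ?_)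
    show inc hK hφ ((lo s).1 i j) = (lo (inc hK hφ s)).1 i j
    fin_cases i <;> fin_cases j <;> simp [lo]
  show mm hφ * PhiD hφ hK 1 (Matrix.SpecialLinearGroup.map (inc hK hφ) (lo s)) * (mm hφ)⁻¹ = _
  rw [h1]

theorem psi_up_mem (s : KD φ 0) : Psi hK hφ (up s) ∈ X φ q ![1, 2] :=
  (mem_12 hK hφ _).2 ⟨_, psi_up hK hφ s⟩

theorem psi_lo_mem (s : KD φ 0) : Psi hK hφ (lo s) ∈ X φ q ![-1, -2] :=
  (mem_n12 hK hφ _).2 ⟨_, psi_lo hK hφ s⟩

theorem psi_up_eq_one {s : KD φ 0} (h : Psi hK hφ (up s) = 1) : s = 0 := by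
  rw [psi_up] at h
  have h1 : PhiD hφ hK 1 (up (inc hK hφ s)) = 1 := by
    have h2 : PhiD hφ hK 1 (up (inc hK hφ s)) = (mm hφ)⁻¹ * 1 * mm hφ := by rw [← h]; group
    rw [h2]; group
  by_contra hs
  exact (coordD hφ hK 1).ne_one (fun h2 => hs ((inc hK hφ).injective (by rw [h2, map_zero]))) h1

/-- `Ψ` commutes with `Φ₀` -/
theorem psi_comm (A B : Matrix.SpecialLinearGroup (Fin 2) (KD φ 0)) :
    PhiD hφ hK 0 A * Psi hK hφ B = Psi hK hφ B * PhiD hφ hK 0 A := by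
  have h3 : Subgroup.closure (Set.range (up (F := KD φ 0)) ∪ Set.range (lo (F := KD φ 0))) ≤
      (Subgroup.centralizer {PhiD hφ hK 0 A}).comap (Psi hK hφ) := by
    rw [Subgroup.closure_le]
    rintro _ (⟨a, rfl⟩ | ⟨a, rfl⟩)
    · show Psi hK hφ (up a) ∈ Subgroup.centralizer {PhiD hφ hK 0 A}
      rw [Subgroup.mem_centralizer_singleton_iff]
      exact (L0_comm hK hφ (Or.inl (psi_up_mem hK hφ a))).symm
    · show Psi hK hφ (lo a) ∈ Subgroup.centralizer {PhiD hφ hK 0 A}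
      rw [Subgroup.mem_centralizer_singleton_iff]
      exact (L0_comm hK hφ (Or.inr (psi_lo_mem hK hφ a))).symm
  exact (Subgroup.mem_centralizer_singleton_iff.1 (h3 (mem_closure_SL2 B))).symm

end psi

section fix

variable (A : Matrix.SpecialLinearGroup (Fin 2) (KD φ 0)) {τ : K ≃+* K}

/-- the automorphism -/
noncomputable abbrev xo (τ : K ≃+* K) : MulAut ↥(twistedD4 K q) := MulAut.conj (PhiD hφ hK 0 A) * st q τ

/-- the fixed points -/
noncomputable abbrev Fxo (τ : K ≃+* K) : Subgroup ↥(twistedD4 K q) :=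
  MonoidHom.eqLocus (xo hK hφ A τ).toMonoidHom (MonoidHom.id _)

theorem mem_Fxo {y : ↥(twistedD4 K q)} : y ∈ Fxo hK hφ A τ ↔ xo hK hφ A τ y = y := Iff.rfl

theorem xo_apply (y : ↥(twistedD4 K q)) :
    xo hK hφ A τ y = PhiD hφ hK 0 A * st q τ y * (PhiD hφ hK 0 A)⁻¹ := rfl

theorem xo_12 {y : ↥(twistedD4 K q)} (hy : y ∈ X φ q ![1, 2] ∨ y ∈ X φ q ![-1, -2]) : xo hK hφ A τ y = st q τ y := by
  rw [xo_apply, L0_comm hK hφ, mul_inv_cancel_right]
  rcases hy with hy | hy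
  · exact Or.inl ((fixX_st hK hφ τ (isRoot_of_mem (by decide)) y).2 hy)
  · exact Or.inr ((fixX_st hK hφ τ (isRoot_of_mem (by decide)) y).2 hy)

theorem xo_psi (hq : IsPrimePow q) (hτ : τ ^ 3 = 1) (B : Matrix.SpecialLinearGroup (Fin 2) (KD φ 0)) :
    xo hK hφ A τ (Psi hK hφ B) = Psi hK hφ B := by
  have h1 : st q τ (Psi hK hφ B) = Psi hK hφ B := by
    show st q τ (mm hφ * PhiD hφ hK 1 (Matrix.SpecialLinearGroup.map (inc hK hφ) B) * (mm hφ)⁻¹) =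
      mm hφ * PhiD hφ hK 1 (Matrix.SpecialLinearGroup.map (inc hK hφ) B) * (mm hφ)⁻¹
    rw [map_mul, map_mul, map_inv, st_mm, st_Phi hK hφ]
    congr 3
    apply Subtype.ext
    ext s t
    show τ (B.1 s t : K) = (B.1 s t : K)
    exact tau_fix hK hφ hq hτ (mem_Fx.1 (B.1 s t).2)
  rw [xo_apply, h1, psi_comm, mul_inv_cancel_right]

theorem psi_mem_Fxo (hq : IsPrimePow q) (hτ : τ ^ 3 = 1) (B : Matrix.SpecialLinearGroup (Fin 2) (KD φ 0)) :
    Psi hK hφ B ∈ Fxo hK hφ A τ := xo_psi hK hφ A hq hτ B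

theorem up_iff (hq : IsPrimePow q) (hτ : τ ^ 3 = 1) (hτ1 : τ ≠ 1) (y : ↥(twistedD4 K q)) :
    y ∈ X φ q ![1, 2] ⊓ Fxo hK hφ A τ ↔ ∃ t, Psi hK hφ (up t) = y := by
  constructor
  · rintro ⟨h1, h2⟩
    have h3 : xo hK hφ A τ y = y := h2
    rw [xo_12 hK hφ A (Or.inl h1)] at h3
    obtain ⟨a, rfl⟩ := (mem_12 hK hφ y).1 h1
    rw [map_mul, map_mul, map_inv, st_mm, st_up] at h3
    have h4 := mul_left_cancel (mul_right_cancel h3)
    have h5 := (coordD hφ hK 1).inj h4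
    have h6 : τ (a : K) = a := congrArg (fun b : KD φ 1 => (b : K)) h5
    have h7 := fix_tau hK hφ hq hτ hτ1 h6
    refine ⟨⟨a, mem_Fx.2 h7⟩, ?_⟩
    rw [psi_up]
    congr 3
  · rintro ⟨t, rfl⟩
    exact ⟨psi_up_mem hK hφ t, psi_mem_Fxo hK hφ A hq hτ _⟩

theorem lo_inj {a b : KD φ 1} (h : PhiD hφ hK 1 (lo a) = PhiD hφ hK 1 (lo b)) : a = b := by
  have h1 : PhiD hφ hK 1 (lo a * (lo b)⁻¹) = 1 := by rw [map_mul, map_inv, h, mul_inv_cancel]
  have h2 := (ker_Phi hK hφ 1 h1).1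
  have h3 : lo a * (lo b)⁻¹ = lo (a - b) := by
    rw [mul_inv_eq_iff_eq_mul]
    refine Subtype.ext (Matrix.ext fun i j => ?_)
    show (lo a).1 i j = ((lo (a - b)).1 * (lo b).1) i j
    fin_cases i <;> fin_cases j <;> simp [lo, Matrix.mul_apply, Fin.sum_univ_two]
  rw [h3] at h2
  have h4 : (a - b : KD φ 1) = 0 := by
    have e : ((lo (a - b)).1 : Matrix (Fin 2) (Fin 2) (KD φ 1)) 1 0 = a - b := by simp [lo]
    rw [← e]; exact h2
  exact sub_eq_zero.1 h4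

theorem lo_iff (hq : IsPrimePow q) (hτ : τ ^ 3 = 1) (hτ1 : τ ≠ 1) (y : ↥(twistedD4 K q)) :
    y ∈ X φ q ![-1, -2] ⊓ Fxo hK hφ A τ ↔ ∃ t, Psi hK hφ (lo t) = y := by
  constructor
  · rintro ⟨h1, h2⟩
    have h3 : xo hK hφ A τ y = y := h2
    rw [xo_12 hK hφ A (Or.inr h1)] at h3
    obtain ⟨a, rfl⟩ := (mem_n12 hK hφ y).1 h1
    rw [map_mul, map_mul, map_inv, st_mm, st_lo hK hφ] at h3
    have h4 := mul_left_cancel (mul_right_cancel h3)
    have h5 := lo_inj hK hφ h4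
    have h6 : τ (a : K) = a := congrArg (fun b : KD φ 1 => (b : K)) h5
    have h7 := fix_tau hK hφ hq hτ hτ1 h6
    refine ⟨⟨a, mem_Fx.2 h7⟩, ?_⟩
    rw [psi_lo]
    congr 3
  · rintro ⟨t, rfl⟩
    exact ⟨psi_lo_mem hK hφ t, psi_mem_Fxo hK hφ A hq hτ _⟩

/-- the fixed points form a group of order `q` -/
theorem card_Xf (hq : IsPrimePow q) (hτ : τ ^ 3 = 1) (hτ1 : τ ≠ 1) :
    Nat.card ↥(X φ q ![1, 2] ⊓ Fxo hK hφ A τ : Subgroup ↥(twistedD4 K q)) = q := by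
  refine Eq.trans ?_ (card_KD0 hK hφ hq)
  refine (Nat.card_eq_of_bijective
    (fun t : KD φ 0 => (⟨Psi hK hφ (up t), (up_iff hK hφ A hq hτ hτ1 _).2 ⟨t, rfl⟩⟩ :
      ↥(X φ q ![1, 2] ⊓ Fxo hK hφ A τ : Subgroup ↥(twistedD4 K q)))) ⟨fun a b h => ?_, fun y => ?_⟩).symm
  · have h1 : Psi hK hφ (up a) = Psi hK hφ (up b) := congrArg Subtype.val h
    have h2 : Psi hK hφ (up (a - b)) = 1 := by
      have h3 : (up (a - b) : Matrix.SpecialLinearGroup (Fin 2) (KD φ 0)) = up a * (up b)⁻¹ := by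
        rw [eq_mul_inv_iff_mul_eq, ← Cfsg.Agent.H884.NA.up_add, sub_add_cancel]
      rw [h3, map_mul, map_inv, h1, mul_inv_cancel]
    exact sub_eq_zero.1 (psi_up_eq_one hK hφ h2)
  · obtain ⟨t, ht⟩ := (up_iff hK hφ A hq hτ hτ1 _).1 y.2
    exact ⟨t, Subtype.ext ht⟩

theorem imgH (hq : IsPrimePow q) (hτ : τ ^ 3 = 1) (hτ1 : τ ≠ 1) :
    ImgH q (X φ q ![1, 2] ⊓ Fxo hK hφ A τ) (X φ q ![-1, -2] ⊓ Fxo hK hφ A τ) := by
  have := Fintype.ofFinite (KD φ 0)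
  refine ⟨KD φ 0, inferInstance, this, Psi hK hφ, ?_, up_iff hK hφ A hq hτ hτ1, lo_iff hK hφ A hq hτ hτ1,
    fun t ht => psi_up_eq_one hK hφ ht⟩
  rw [← Nat.card_eq_fintype_card, card_KD0 hK hφ hq]

theorem psi_range (hq : IsPrimePow q) (hτ : τ ^ 3 = 1) (hτ1 : τ ≠ 1) :
    (Psi hK hφ).range = (X φ q ![1, 2] ⊓ Fxo hK hφ A τ) ⊔ (X φ q ![-1, -2] ⊓ Fxo hK hφ A τ) := by
  apply le_antisymm
  · have h3 : Subgroup.closure (Set.range (up (F := KD φ 0)) ∪ Set.range (lo (F := KD φ 0))) ≤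
        ((X φ q ![1, 2] ⊓ Fxo hK hφ A τ) ⊔ (X φ q ![-1, -2] ⊓ Fxo hK hφ A τ)).comap (Psi hK hφ) := by
      rw [Subgroup.closure_le]
      rintro _ (⟨a, rfl⟩ | ⟨a, rfl⟩)
      · exact (le_sup_left : X φ q ![1, 2] ⊓ Fxo hK hφ A τ ≤ _) ((up_iff hK hφ A hq hτ hτ1 _).2 ⟨a, rfl⟩)
      · exact (le_sup_right : X φ q ![-1, -2] ⊓ Fxo hK hφ A τ ≤ _) ((lo_iff hK hφ A hq hτ hτ1 _).2 ⟨a, rfl⟩)
    rintro _ ⟨B, rfl⟩
    exact h3 (mem_closure_SL2 B)
  · refine sup_le ?_ ?_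
    · intro y hy
      obtain ⟨t, ht⟩ := (up_iff hK hφ A hq hτ hτ1 _).1 hy
      exact ⟨_, ht⟩
    · intro y hy
      obtain ⟨t, ht⟩ := (lo_iff hK hφ A hq hτ hτ1 _).1 hy
      exact ⟨_, ht⟩

/-- the kernel is central -/
theorem psi_ker : (Psi hK hφ).ker ≤ Subgroup.center (Matrix.SpecialLinearGroup (Fin 2) (KD φ 0)) := by
  intro B hB
  have h1 : mm hφ * PhiD hφ hK 1 (Matrix.SpecialLinearGroup.map (inc hK hφ) B) * (mm hφ)⁻¹ = 1 := hB
  have h2 : PhiD hφ hK 1 (Matrix.SpecialLinearGroup.map (inc hK hφ) B) = 1 := by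
    have h3 : PhiD hφ hK 1 (Matrix.SpecialLinearGroup.map (inc hK hφ) B) = (mm hφ)⁻¹ * 1 * mm hφ := by
      rw [← h1]; group
    rw [h3]; group
  obtain ⟨h10, h01, -⟩ := ker_Phi hK hφ 1 h2
  have e10 : B.1 1 0 = 0 := (inc hK hφ).injective (by rw [map_zero]; exact h10)
  have e01 : B.1 0 1 = 0 := (inc hK hφ).injective (by rw [map_zero]; exact h01)
  have hdet : B.1 0 0 * B.1 1 1 = 1 := by
    have h4 := B.2
    rw [Matrix.det_fin_two, e01, zero_mul, sub_zero] at h4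
    exact h4
  have h00 : (inc hK hφ (B.1 0 0)) ^ 2 = 1 := (ker_Phi hK hφ 1 h2).2.2
  have h00' : B.1 0 0 ^ 2 = 1 := (inc hK hφ).injective (by rw [map_pow, map_one]; exact h00)
  have h11 : B.1 1 1 = B.1 0 0 := by
    have h5 : B.1 0 0 ≠ 0 := left_ne_zero_of_mul_eq_one hdet
    apply mul_left_cancel₀ h5
    rw [hdet, ← pow_two, h00']
  rw [Subgroup.mem_center_iff]
  intro C
  refine Subtype.ext (Matrix.ext fun i j => ?_)
  show (C.1 * B.1) i j = (B.1 * C.1) i j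
  fin_cases i <;> fin_cases j <;> simp [Matrix.mul_apply, Fin.sum_univ_two, e01, e10, h11, mul_comm]

end fix

section nsa

variable {G : Type*} [Group G] {p : ℕ} [Fact p.Prime] {K X Y P Q T : Subgroup G}

/-- `⟨X, Y⟩` is perfect -/
theorem perfect_XY {m : ℕ} (hI : ImgH m X Y) (h4 : 4 ≤ m) : ⁅X ⊔ Y, X ⊔ Y⁆ = X ⊔ Y := by
  obtain ⟨F, _, _, f, hF, hX, hY, -⟩ := hI
  have hr : f.range = X ⊔ Y := by
    apply le_antisymm
    · have h3 : Subgroup.closure (Set.range (up (F := F)) ∪ Set.range (lo (F := F))) ≤ (X ⊔ Y).comap f := by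
        rw [Subgroup.closure_le]
        rintro _ (⟨a, rfl⟩ | ⟨a, rfl⟩)
        · exact (le_sup_left : X ≤ _) ((hX _).2 ⟨a, rfl⟩)
        · exact (le_sup_right : Y ≤ _) ((hY _).2 ⟨a, rfl⟩)
      rintro _ ⟨B, rfl⟩
      exact h3 (mem_closure_SL2 B)
    · refine sup_le ?_ ?_
      · intro y hy
        obtain ⟨t, ht⟩ := (hX y).1 hy
        exact ⟨_, ht⟩
      · intro y hy
        obtain ⟨t, ht⟩ := (hY y).1 hy
        exact ⟨_, ht⟩
  have h4' : 4 ≤ Nat.card F := by rw [Nat.card_eq_fintype_card, hF]; exact h4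
  have hperf := (Cfsg.Agent.SignalizersComponents.SLQuasisimple.isQuasisimple_two (F := F) h4').1
  have h1 : commutator (Matrix.SpecialLinearGroup (Fin 2) F) = ⊤ := hperf.commutator_eq_top
  rw [← hr, MonoidHom.range_eq_map, ← Subgroup.map_commutator, ← commutator_def, h1]

theorem cond_one [Finite K] {m : ℕ} (hXK : X ≤ K) (hYK : Y ≤ MK K X) (hX : IsPGroup p X) (hI : ImgH m X Y) (h4 : 4 ≤ m) :
    Cond K X Y := cond_of_perfect hXK hYK hX (perfect_XY hI h4)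

/-- `M / Z(M)` is nonabelian simple, not alternating -/
theorem nsa_one [Finite K] (h : Base p K X Y P Q T) (hc : Cond K X Y) {q : ℕ} (hq : IsPrimePow q) (hI : ImgH q X Y)
    (h3 : q % 3 = 1) (hX : Nat.card X = q) {R : Subgroup G} (hRM : R ≤ MK K X) (hRp : IsPGroup p R) (hXR : X < R) :
    NSA (MK K X ⧸ Subgroup.center (MK K X)) := by
  have hp : p.Prime := Fact.out
  have hXf : Finite X := Set.Finite.subset (Set.toFinite (K : Set G)) h.leX
  obtain ⟨e, he⟩ : ∃ e, q = p ^ e := by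
    obtain ⟨k, hk⟩ := (IsPGroup.iff_card).1 h.pgrp
    exact ⟨k, by rw [← hX, hk]⟩
  refine nsa_base h hc he hI ?_
  right
  refine ⟨R, hRM, hRp, ?_, fun h2 => by omega⟩
  have : Finite R := Set.Finite.subset (Set.toFinite (K : Set G)) (hRM.trans (MK_le_self h.leX))
  rw [← hX]
  rcases lt_or_eq_of_le (Subgroup.card_le_of_le hXR.le) with h5 | h5
  · exact h5
  · exact absurd (Subgroup.eq_of_le_of_card_ge hXR.le h5.ge) hXR.ne

end nsa

end Cfsg.Agent.H911.TD
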